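import Cfsg.Agent.H53.HC.Asm
import Cfsg.Agent.H53.HC.Exc
import Cfsg.Agent.H40.PV.Ell
import Cfsg.Agent.H713.Van
import Cfsg.Agent.Nodes.FreeTorus

/-!
# Harish-Chandra induced irreducible characters vanish off the conjugates of the parabolic subgroup (helper53)

* `exists_irr_MJ_van`, `exists_irr_one_van`, `van_of_one` : `HC.exists_irr_MJ`, `HC.exists_irr_one`, `big_of_one` with the
  vanishing;
* `vz_of_ell` : an elliptic element of `P_K` which is in no conjugate of `P_J` for reasons of type is a `VZ` element;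
* `ell_of_orderOf` : `Ell K s` if the order of `s` does not divide those of the smaller parabolic subgroups.
-/

set_option autoImplicit false
set_option linter.unusedSectionVars false

open scoped ComplexConjugate Pointwise
open Cfsg

namespace Cfsg.Agent.H53.DZ

open Cfsg.Agent.OddOrderCharacters.Clifford Cfsg.Agent.Characters Cfsg.Agent.H53.HC

/-- an induced function vanishes off the conjugates -/
theorem indFun_van {G : Type*} [Group G] [Fintype G] (P : Subgroup G) (θ : P → ℂ) {y : G}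
    (hy : ∀ g : G, g⁻¹ * y * g ∉ P) : indFun P θ y = 0 := by
  rw [indFun_apply, Finset.sum_eq_zero, mul_zero]
  intro x _
  exact ext_apply_not_mem P θ _ (hy x)

section rgd

open CoxeterSystem Cfsg.Agent.ChevalleyStructure.CoxeterGeom Cfsg.Agent.Tits.Roots Cfsg.Agent.Tits.Core
  Cfsg.Agent.Tits.Exchange Cfsg.Agent.Nodes.Reps Cfsg.Agent.Nodes.BNOf Cfsg.Agent.Nodes.StabComb
  Cfsg.Agent.Nodes.Bruhat Cfsg.Agent.Nodes.OppDec Cfsg.Agent.Nodes.LeviDec

variable {I W Y : Type*} [Fintype I] [DecidableEq I] [Group W] [Group Y] {M : CoxeterMatrix I}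
  {cs : CoxeterSystem M W} {A : I → I → ℤ} {h : IsCartan M A} {p : ℕ} {T : Subgroup Y} {n : I → Y}
  {X : (I → ℤ) → Subgroup Y}

variable (R : RGD cs h p T n X)

include R

/-- **Irreducible characters of a group with a root group datum from the cuspidal characters of `M_J`.** -/
theorem exists_irr_MJ_van [Finite W] [Fintype Y] (hG : GG cs h T X = ⊤) (J : Set I)
    {θ : ↥(MJ cs h X J) → ℂ} (hθ : IsIrrCharacter _ θ)
    (hc : ∀ i ∈ J, ∀ [Fintype (rad cs h X J i)], ∑ u : rad cs h X J i, θ ⟨u, rad_le_MJ J i u.2⟩ = 0)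
    (hs : ∀ w g (hg : Rp cs R.nsys w g), w ∉ WJ cs J → ∀ hw : Perm cs h J w,
      ∃ (m : Y) (hm : m ∈ MJ cs h X J), θ ⟨g⁻¹ * m * g, conj_mem_MJ R hg hw hm⟩ ≠ θ ⟨m, hm⟩) :
    ∃ χ : Y → ℂ, IsIrrCharacter Y χ ∧ (∃ k : ℕ, 0 < k ∧ χ 1 = (PJ cs h T X J).index * (k * θ 1)) ∧
      ∀ y : Y, (∀ g : Y, g⁻¹ * y * g ∉ PJ cs h T X J) → χ y = 0 := by
  classical
  obtain ⟨ψ, hψ, ⟨k, hk, hk1⟩, c, s, hres, hsφ⟩ := exists_over (MJ_le_LJ (T := T) J) (LJ_le_normalizer_MJ R J) hθ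
  obtain ⟨ψ', hψ', hψL, hψV⟩ := exists_infl R J hψ
  have hres' : ∀ (m : Y) (hm : m ∈ MJ cs h X J), ψ' ⟨m, LJ_le_PJ (MJ_le_LJ J hm)⟩ = c * ∑ φ ∈ s, φ ⟨m, hm⟩ := by
    intro m hm
    rw [hψL]
    exact hres ⟨m, hm⟩
  -- the conjugates are conjugates under the torus
  have hsT : ∀ φ ∈ s, ∃ t, ∃ ht : t ∈ T, φ = θ ∘ conjME (MJ cs h X J) (T_le_normalizer_MJ R J ht) := by
    intro φ hφ
    obtain ⟨g, hg, hgφ⟩ := hsφ φ hφ
    obtain ⟨m, hm, t, ht, rfl⟩ := (mem_LJ_iff_mul' R J).1 hg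
    refine ⟨t, ht, ?_⟩
    funext x
    obtain ⟨hx', e⟩ := hgφ x x.2
    rw [e, Function.comp_apply]
    have h1 := Core.isIrr_isClassFunction hθ (conjME (MJ cs h X J) (T_le_normalizer_MJ R J ht) x) ⟨m, hm⟩
    rw [← h1]
    congr 1
    apply Subtype.ext
    simp only [conjME_coe, Subgroup.coe_mul, InvMemClass.coe_inv]
    group
  refine ⟨indFun (PJ cs h T X J) ψ', ?_, ⟨k, hk, ?_⟩, fun y hy => indFun_van _ _ hy⟩
  · refine isIrr_indFun_rgd R hG J hψ' hψV ?_ ?_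
    · intro i hi hf
      have h1 : ∀ u : rad cs h X J i, ψ' ⟨u, rad_le_PJ J i u.2⟩ = c * ∑ φ ∈ s, φ ⟨u, rad_le_MJ J i u.2⟩ :=
        fun u => hres' u (rad_le_MJ J i u.2)
      rw [Finset.sum_congr rfl fun u _ => h1 u, ← Finset.mul_sum, Finset.sum_comm]
      rw [Finset.sum_eq_zero, mul_zero]
      intro φ hφ
      obtain ⟨t, ht, rfl⟩ := hsT φ hφ
      rw [← hc i hi]
      exact Fintype.sum_equiv (conjME (rad cs h X J i) (T_le_normalizer_rad R J i ht)).toEquiv _ _ fun u => rfl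
    · intro w g hg hw hp
      have hgn := inv_mem (rp_mem_normalizer_MJ R hg hp)
      refine ⟨MJ cs h X J, le_trans (MJ_le_LJ J) LJ_le_PJ,
        fun l hl => LJ_le_PJ (MJ_le_LJ J (conj_mem_MJ R hg hp hl)), ?_⟩
      intro hf
      have h1 : ∀ l : MJ cs h X J, ψ' ⟨l, LJ_le_PJ (MJ_le_LJ J l.2)⟩ *
          conj (ψ' ⟨g⁻¹ * l * g, LJ_le_PJ (MJ_le_LJ J (conj_mem_MJ R hg hp l.2))⟩) =
          ∑ φ ∈ s, ∑ φ' ∈ s, (c * conj c) * (φ l * conj ((φ' ∘ conjME (MJ cs h X J) hgn) l)) := by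
        intro l
        have e2 : (⟨g⁻¹ * l * g, conj_mem_MJ R hg hp l.2⟩ : MJ cs h X J) = conjME (MJ cs h X J) hgn l := by
          apply Subtype.ext
          rw [conjME_coe, inv_inv]
        rw [hres' l l.2, hres' _ (conj_mem_MJ R hg hp l.2), e2, map_mul, map_sum]
        simp only [← Finset.mul_sum, Function.comp_apply]
        rw [← Finset.sum_mul]
        ring
      rw [Finset.sum_congr rfl fun l _ => h1 l, Finset.sum_comm]
      refine Finset.sum_eq_zero fun φ hφ => ?_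
      rw [Finset.sum_comm]
      refine Finset.sum_eq_zero fun φ' hφ' => ?_
      rw [← Finset.mul_sum]
      obtain ⟨t, ht, rfl⟩ := hsT φ hφ
      obtain ⟨t', ht', rfl⟩ := hsT φ' hφ'
      have hne : θ ∘ conjME (MJ cs h X J) (T_le_normalizer_MJ R J ht) ≠
          (θ ∘ conjME (MJ cs h X J) (T_le_normalizer_MJ R J ht')) ∘ conjME (MJ cs h X J) hgn := by
        intro he
        have hg' : Rp cs R.nsys w (t * g * t'⁻¹) := by
          have h2 := ((rp_of_mem (cs := cs) (hN := R.nsys) ht).mul hg).mul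
            (rp_of_mem (cs := cs) (hN := R.nsys) (inv_mem ht'))
          rwa [one_mul, mul_one] at h2
        obtain ⟨m, hm, hne⟩ := hs w _ hg' hw hp
        apply hne
        have h3 := congrFun he (conjME (MJ cs h X J) (inv_mem (T_le_normalizer_MJ R J ht)) ⟨m, hm⟩)
        simp only [Function.comp_apply] at h3
        refine Eq.trans ?_ (h3.symm.trans ?_)
        · congr 1
          apply Subtype.ext
          simp only [conjME_coe]
          group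
        · congr 1
          apply Subtype.ext
          simp only [conjME_coe]
          group
      have hi1 : IsIrrCharacter _ (θ ∘ conjME (MJ cs h X J) (T_le_normalizer_MJ R J ht)) :=
        Core.isIrr_comp (conjME _ (T_le_normalizer_MJ R J ht)).toMonoidHom (MulEquiv.surjective _) hθ
      have hi2 : IsIrrCharacter _ (θ ∘ conjME (MJ cs h X J) (T_le_normalizer_MJ R J ht')) :=
        Core.isIrr_comp (conjME _ (T_le_normalizer_MJ R J ht')).toMonoidHom (MulEquiv.surjective _) hθ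
      have hi3 : IsIrrCharacter _ ((θ ∘ conjME (MJ cs h X J) (T_le_normalizer_MJ R J ht')) ∘
          conjME (MJ cs h X J) hgn) :=
        Core.isIrr_comp (conjME _ hgn).toMonoidHom (MulEquiv.surjective _) hi2
      have h4 := Core.classInner_irr_ne hi1 hi3 hne
      rw [Core.classInner_def, mul_eq_zero] at h4
      rcases h4 with h4 | h4
      · exact absurd (inv_eq_zero.1 h4) Core.card_ne_zero_complex
      · rw [mul_eq_zero]
        exact Or.inr h4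
  · rw [indFun_one]
    congr 1
    rw [← hk1]
    exact hψL 1 (one_mem _)


/-- **One component of type `A_2`**, with the vanishing. -/
theorem exists_irr_one_van [Finite W] [Fintype Y] (hG : GG cs h T X = ⊤) {J K K' : Set I} {j : I}
    (hJ : ∀ i, i ∈ J ↔ i ≠ j) (hJK : J = K ∪ K') (ho : Orth A K K') {k₀ k₁ : I} (hK : K = {k₀, k₁})
    (hk : IsoPair A J k₀ k₁) (hk1 : A k₁ j = 0) (h3 : ¬ (3 : ℤ) ∣ A k₀ j)
    (hun : ∀ a b, IsoPair A J a b → (a = k₀ ∧ b = k₁) ∨ (a = k₁ ∧ b = k₀))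
    {θ : ↥(MJ cs h X K) → ℂ} (hθ : Cusp cs h X K θ) (hns : NonSwap cs h X K k₀ k₁ θ)
    {θ' : ↥(MJ cs h X K') → ℂ} (hθ' : Cusp cs h X K' θ') :
    ∃ χ : Y → ℂ, IsIrrCharacter Y χ ∧ (∃ k : ℕ, 0 < k ∧ χ 1 = (PJ cs h T X J).index * (k * (θ 1 * θ' 1))) ∧
      ∀ y : Y, (∀ g : Y, g⁻¹ * y * g ∉ PJ cs h T X J) → χ y = 0 := by
  subst hJK
  obtain ⟨ψ, hψ, hval⟩ := hθ.exists_prod R ho hθ'
  have hval1 : ψ 1 = θ 1 * θ' 1 := by
    obtain ⟨hab, e⟩ := hval 1 (one_mem _) 1 (one_mem _)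
    simp only [mul_one] at e
    exact e
  rw [← hval1]
  refine exists_irr_MJ_van R hG (K ∪ K') hψ.irr hψ.van ?_
  intro w g hg hw hp
  obtain ⟨h0, h1⟩ := swap_of_iso hJ hk hk1 h3 hun hp hw
  exact not_stable_swap R rfl ho hK hns hθ'.irr hval hg hp h0 h1

theorem pj_mono [Finite W] {K L : Set I} (hKL : K ⊆ L) : PJ cs h T X K ≤ PJ cs h T X L := by
  intro g hg
  obtain ⟨w, hw, hc⟩ := (mem_PJ_iff_cell R).1 hg
  exact (mem_PJ_iff_cell R).2 ⟨w, WJ_mono cs hKL hw, hc⟩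

/-- conjugate root groups -/
theorem card_rep [Finite W] (w : W) {x : I → ℤ} (hx : IsRoot cs h x) :
    Nat.card ↥(X (rep cs h w x)) = Nat.card ↥(X x) := by
  obtain ⟨g, hg⟩ := exists_rp (cs := cs) R.nsys w
  rw [← R.conj_rp hg hx]
  exact Nodes.FreeTorus.card_cj g _

/-- **`VZ` elements of parabolic subgroups.** -/
theorem vz_of_ell [Finite W] [Finite Y] [Fact p.Prime] (hG : GG cs h T X = ⊤) {J K : Set I} {s : Y}
    (hs : H40.PV.Ell cs h T X K s) {χ : Y → ℂ} (hχ : IsIrrCharacter Y χ)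
    (hv : ∀ y : Y, (∀ g : Y, g⁻¹ * y * g ∉ PJ cs h T X J) → χ y = 0)
    (hno : ∀ σ : Equiv.Perm I, (∀ i j, M (σ i) (σ j) = M i j) →
      (∀ i, Nat.card (X (sr (σ i))) = Nat.card (X (sr i))) → ∀ w : W,
        ¬ ∀ k ∈ σ '' K, ∃ j ∈ J, rep cs h w (sr k) = sr j) : H713.VZ Y s := by
  refine ⟨⟨χ, hχ⟩, fun α => hv _ fun g hg => ?_⟩
  obtain ⟨z, σ, hM, hc, hE⟩ := hs.exists_aut R hG α
  obtain ⟨K₁, hK₁, w, -, h2, -⟩ := hE.exists_conj R hG (g := z * g) (J := J) (by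
    have e : (z * g)⁻¹ * (z * α s * z⁻¹) * (z * g) = g⁻¹ * α s * g := by group
    rw [e]
    exact hg)
  refine hno σ hM hc w fun k hk => ?_
  obtain ⟨j, hj, e⟩ := h2 k hk
  exact ⟨j, hK₁ hj, e⟩

omit R in
/-- elliptic for reasons of order -/
theorem ell_of_orderOf {K : Set I} {s : Y} (hs : s ∈ PJ cs h T X K)
    (ho : ∀ K' ⊆ K, K' ≠ K → ¬ orderOf s ∣ Nat.card ↥(PJ cs h T X K')) : H40.PV.Ell cs h T X K s := by
  refine ⟨hs, fun g _ K' hK' hg' => ?_⟩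
  by_contra hne
  apply ho K' hK' hne
  have h1 : orderOf (g⁻¹ * s * g) = orderOf s := by
    have h2 := MulEquiv.orderOf_eq (MulAut.conj g⁻¹) s
    rw [MulAut.conj_apply, inv_inv] at h2
    exact h2
  rw [← h1, ← Subgroup.orderOf_mk _ hg']
  exact orderOf_dvd_natCard _

end rgd

section gen

open CoxeterSystem Cfsg.Agent.ChevalleyStructure.CoxeterGeom Cfsg.Agent.Tits.Roots Cfsg.Agent.Tits.Core
  Cfsg.Agent.Tits.Exchange Cfsg.Agent.Nodes.Reps Cfsg.Agent.Nodes.BNOf Cfsg.Agent.Nodes.StabComb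
  Cfsg.Agent.Nodes.Bruhat Cfsg.Agent.Nodes.OppDec Cfsg.Agent.Nodes.LeviDec Cfsg.Agent.H35.ExcIdx

variable {r q l : ℕ} {M : CoxeterMatrix (Fin l)} {A : Fin l → Fin l → ℤ} {h : IsCartan M A} {f : Fin l → ℕ}
  {S : Type*} [Group S] {T : Subgroup S} {n : Fin l → S} {X : (Fin l → ℤ) → Subgroup S}

/-- **`F₄(q)`, `²E₆(q)`, `E₇(q)`, `E₈(q)`.** -/
theorem van_of_one [Finite S] {q' : ℕ} {j k₀ k₁ : Fin l} {K' : Set (Fin l)}
    (D : ExcData r q h f {i | i ≠ j} T n X) (hJ : ({i | i ≠ j} : Set (Fin l)) = {k₀, k₁} ∪ K')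
    (ho : ∀ i ∈ ({k₀, k₁} : Set (Fin l)), ∀ i' ∈ K', M i i' = 2) (hk : M k₀ k₁ = 3) (hk1 : M k₁ j = 2)
    (hk0 : M k₀ j = 3 ∨ M k₀ j = 4)
    (hun : ∀ a b, a ≠ j → b ≠ j → M a b = 3 → (∀ c, c ≠ j → c ≠ a → c ≠ b → M a c = 2 ∧ M b c = 2) →
      (a = k₀ ∧ b = k₁) ∨ (a = k₁ ∧ b = k₀))
    (hA2 : InA2 h X q' k₀ k₁) (hK' : In h X K') :
    ∃ χ : S → ℂ, IsIrrCharacter S χ ∧
      ∀ y : S, (∀ g : S, g⁻¹ * y * g ∉ PJ M.toCoxeterSystem h T X {i | i ≠ j}) → χ y = 0 := by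
  classical
  have := D.fin
  have : Fintype S := Fintype.ofFinite S
  obtain ⟨θ, hθ, hns, d, t, hd, hdt, ht⟩ := hA2
  obtain ⟨θ', hθ'⟩ := hK'
  have hmem : ∀ i, i ∈ ({i | i ≠ j} : Set (Fin l)) ↔ i ≠ j := fun i => Iff.rfl
  have hk0J : k₀ ∈ ({i | i ≠ j} : Set (Fin l)) := by rw [hJ]; simp
  have hk1J : k₁ ∈ ({i | i ≠ j} : Set (Fin l)) := by rw [hJ]; simp
  obtain ⟨χ, hχ, -, hv⟩ := exists_irr_one_van D.rgd D.gg hmem hJ (orth_of h ho) rfl
    (isoPair_of h hk0J hk1J hk fun c hc hc0 hc1 => by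
      rw [hJ] at hc
      rcases hc with hc | hc
      · rcases hc with rfl | rfl
        · exact absurd rfl hc0
        · exact absurd rfl hc1
      · exact ⟨ho _ (by simp) c hc, ho _ (by simp) c hc⟩)
    (cartan_two h hk1).1 (not_three_dvd h hk0)
    (fun a b hab => by
      obtain ⟨h1, h2, h3, h4⟩ := of_isoPair h hab
      exact hun a b h1 h2 h3 h4)
    hθ hns hθ'
  exact ⟨χ, hχ, hv⟩

end gen

end Cfsg.Agent.H53.DZ
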